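import Cfsg.Agent.H144.HT.Two
import Cfsg.Agent.Cit.LongInst

/-!
# `PSL_n(q)` and `PSU_n(q)`, `n ≥ 4`, `q` odd: the vacuous rows of S4933 at `p = 2`
-/

set_option autoImplicit false

namespace Cfsg.Agent.H144.HT

open Subgroup Matrix Cfsg Cfsg.Agent.H316.HT Cfsg.Agent.H681.IP Cfsg.Agent.Cit.LongInst Cfsg.Agent.Cit.LongModel

section Blocks

variable {F : Type*} [Field F] {k : ℕ}

/-- the index set -/
abbrev Jx (k : ℕ) : Type := (Fin 2 ⊕ Fin 2) ⊕ Fin k

/-- the block matrices -/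
def bk (k : ℕ) (A B C D : Matrix (Fin 2) (Fin 2) F) : Matrix (Jx k) (Jx k) F :=
  fromBlocks (fromBlocks A B C D) 0 0 1

theorem bk_mul (A B C D A' B' C' D' : Matrix (Fin 2) (Fin 2) F) : bk k A B C D * bk k A' B' C' D' =
    bk k (A * A' + B * C') (A * B' + B * D') (C * A' + D * C') (C * B' + D * D') := by
  simp [bk, fromBlocks_multiply]

theorem bk_one : bk k 1 0 0 (1 : Matrix (Fin 2) (Fin 2) F) = 1 := by
  rw [bk, fromBlocks_one, fromBlocks_one]

theorem bk_inj {A B C D A' B' C' D' : Matrix (Fin 2) (Fin 2) F} (h : bk k A B C D = bk k A' B' C' D') :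
    A = A' ∧ B = B' ∧ C = C' ∧ D = D' := by
  rw [bk, bk, fromBlocks_inj] at h
  exact fromBlocks_inj.1 h.1

variable {T : Set (F →+* F)}

theorem cond_bk {A D : Matrix (Fin 2) (Fin 2) F} (hA : Cond T A) (hD : Cond T D) : Cond T (bk k A 0 0 D) :=
  (hA.fromBlocks hD).fromBlocks (Cond.one T)

theorem cond_sw : Cond T (bk k 0 1 (-1) (0 : Matrix (Fin 2) (Fin 2) F)) := by
  have h1 : bk k 0 1 (-1) (0 : Matrix (Fin 2) (Fin 2) F) = bk k 1 1 0 1 * bk k 1 0 (-1) 1 * bk k 1 1 0 1 := by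
    rw [bk_mul, bk_mul]
    simp
  refine ⟨?_, fun t _ => ?_⟩
  · rw [h1, det_mul, det_mul]
    simp [bk, det_fromBlocks_zero₂₁, det_fromBlocks_zero₁₂]
  · rw [bk, fromBlocks_transpose, fromBlocks_map, fromBlocks_transpose, fromBlocks_map, fromBlocks_multiply,
      fromBlocks_multiply]
    have e1 : (-1 : Matrix (Fin 2) (Fin 2) F).map t = -1 := by
      ext i j
      fin_cases i <;> fin_cases j <;> simp
    simp [e1, Matrix.map_one t (map_zero t) (map_one t), Matrix.map_zero t (map_zero t), fromBlocks_one]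

end Blocks

/-- **The generic row.** -/
theorem row_of_cond (hIP : IPTwo) {F : Type*} [Field F] (h2 : (2 : F) ≠ 0) {T : Set (F →+* F)} {a b : F}
    (hq : Quat T a b) {k : ℕ} {S : Type*} [Group S] (f : Un T (Jx k) →* S)
    (hf : ∀ A : Un T (Jx k), f A = 1 → ∃ c : F, (A : SpecialLinearGroup (Jx k) F).1 = c • 1) : Row 2 S := by
  let i0 : Un T (Jx k) := Un.mk (cond_bk (k := k) (cond_U1 T) (Cond.one T))
  let j0 : Un T (Jx k) := Un.mk (cond_bk (k := k) (cond_U2 hq) (Cond.one T))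
  let w0 : Un T (Jx k) := Un.mk (cond_sw (k := k) (T := T))
  have hext : ∀ A B : Un T (Jx k), A.1.1 = B.1.1 → A = B := fun A B h => Subtype.ext (Subtype.ext h)
  have hi1 : i0.1.1 = bk k (U1 F) 0 0 1 := rfl
  have hj1 : j0.1.1 = bk k (U2 a b) 0 0 1 := rfl
  have hw1 : w0.1.1 = bk k 0 1 (-1) 0 := rfl
  have hm : ∀ A B : Un T (Jx k), (A * B).1.1 = A.1.1 * B.1.1 := fun A B => rfl
  have h1 : (1 : Un T (Jx k)).1.1 = 1 := rfl
  have hU1 := U1_sq (F := F)
  have hU2 := U2_sq hq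
  have hU12 : U2 a b * U1 F = -(U1 F * U2 a b) := by
    ext i j
    fin_cases i <;> fin_cases j <;> simp [U1, U2, Matrix.mul_apply, Fin.sum_univ_two]
  have h4 : ∀ x : Un T (Jx k), x ^ 2 ^ 2 = x * x * (x * x) := fun x => by
    rw [show (2 : ℕ) ^ 2 = 2 + 2 by norm_num, pow_add, pow_two]
  have hi : i0 ^ 2 ^ 2 = 1 := by
    apply hext
    rw [h4, hm, hm, hi1, h1, bk_mul, bk_mul, ← bk_one]
    simp [hU1]
  have hj : j0 ^ 2 ^ 2 = 1 := by
    apply hext
    rw [h4, hm, hm, hj1, h1, bk_mul, bk_mul, ← bk_one]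
    simp [hU2]
  have hw : w0 ^ 2 ^ 2 = 1 := by
    apply hext
    rw [h4, hm, hm, hw1, h1, bk_mul, bk_mul, ← bk_one]
    simp
  have hii : (i0 * i0).1.1 = bk k (-1) 0 0 1 := by
    rw [hm, hi1, bk_mul]
    simp [hU1]
  have hij : j0 * i0 * j0⁻¹ = i0⁻¹ := by
    rw [mul_inv_eq_iff_eq_mul, eq_inv_mul_iff_mul_eq]
    apply hext
    rw [hm, hm, hi1, hj1, bk_mul, bk_mul]
    congr 1 <;> simp [hU12, ← mul_assoc, hU1]
  -- the conjugates
  have hw' : w0⁻¹.1.1 = bk k 0 (-1) 1 0 := by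
    have e1 : w0⁻¹ = w0 * w0 * w0 := by
      apply inv_eq_of_mul_eq_one_left
      rw [mul_assoc (w0 * w0), ← h4, hw]
    rw [e1, hm, hm, hw1, bk_mul, bk_mul]
    simp
  have hwi : (w0 * i0 * w0⁻¹).1.1 = bk k 1 0 0 (U1 F) := by
    rw [hm, hm, hw1, hi1, hw', bk_mul, bk_mul]
    simp
  have hwj : (w0 * j0 * w0⁻¹).1.1 = bk k 1 0 0 (U2 a b) := by
    rw [hm, hm, hw1, hj1, hw', bk_mul, bk_mul]
    simp
  have hww : (w0 ^ 2).1.1 = bk k (-1) 0 0 (-1) := by
    rw [pow_two, hm, hw1, bk_mul]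
    simp
  have hcom : ∀ (A D : Matrix (Fin 2) (Fin 2) F) (g h : Un T (Jx k)), g.1.1 = bk k A 0 0 1 → h.1.1 = bk k 1 0 0 D →
      Commute g h := by
    intro A D g h hg hh
    apply hext
    rw [hm, hm, hg, hh, bk_mul, bk_mul]
    simp
  have hcom2 : ∀ (A : Matrix (Fin 2) (Fin 2) F) (g : Un T (Jx k)), g.1.1 = bk k A 0 0 1 → Commute (w0 ^ 2) g := by
    intro A g hg
    apply hext
    rw [hm, hm, hg, hww, bk_mul, bk_mul]
    simp
  refine row_quat hIP (i := f i0) (j := f j0) (w := f w0) (n := 2) (by rw [← map_pow, hi, map_one])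
    (by rw [← map_pow, hj, map_one]) (by rw [← map_inv, ← map_inv, ← map_mul, ← map_mul, hij])
    (by rw [← map_pow, hw, map_one]) ?_ ?_ ?_ ?_ ?_ ?_ ?_
  · rw [← map_pow]; exact (hcom2 _ _ hi1).map f
  · rw [← map_pow]; exact (hcom2 _ _ hj1).map f
  · rw [← map_inv, ← map_mul, ← map_mul]; exact (hcom _ _ _ _ hi1 hwi).map f
  · rw [← map_inv, ← map_mul, ← map_mul]; exact (hcom _ _ _ _ hi1 hwj).map f
  · rw [← map_inv, ← map_mul, ← map_mul]; exact (hcom _ _ _ _ hj1 hwi).map f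
  · rw [← map_inv, ← map_mul, ← map_mul]; exact (hcom _ _ _ _ hj1 hwj).map f
  · intro h
    rw [← map_pow] at h
    obtain ⟨c, hc⟩ := hf _ h
    rw [pow_two, hii] at hc
    have e1 := congrFun (congrFun hc (Sum.inl (Sum.inl 0))) (Sum.inl (Sum.inl 0))
    have e2 := congrFun (congrFun hc (Sum.inl (Sum.inr 0))) (Sum.inl (Sum.inr 0))
    simp [bk] at e1 e2
    apply h2
    rw [← e2] at e1
    linear_combination -e1

/-! ### the families -/

section SL

variable (F : Type*) [Field F] (k : ℕ)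

/-- the index equivalence -/
def eJ : Fin (2 + 2 + k) ≃ Jx k := finSumFinEquiv.symm.trans (Equiv.sumCongr finSumFinEquiv.symm (Equiv.refl _))

/-- `SL` on the block index set to `SL_n` -/
def toSL : SpecialLinearGroup (Jx k) F →* SpecialLinearGroup (Fin (2 + 2 + k)) F :=
  MonoidHom.mk' (fun A => ⟨A.1.submatrix (eJ k) (eJ k), by rw [det_submatrix_equiv_self]; exact A.2⟩) fun A B => by
    apply Subtype.ext
    change (A.1 * B.1).submatrix (eJ k) (eJ k) = A.1.submatrix (eJ k) (eJ k) * B.1.submatrix (eJ k) (eJ k)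
    rw [submatrix_mul_equiv]

variable {F k}

theorem toSL_apply (A : SpecialLinearGroup (Jx k) F) : (toSL F k A).1 = A.1.submatrix (eJ k) (eJ k) := rfl

theorem scalar_of_toSL {A : SpecialLinearGroup (Jx k) F} (h : ∃ c : F, (toSL F k A).1 = c • 1) :
    ∃ c : F, A.1 = c • 1 := by
  obtain ⟨c, h1⟩ := h
  refine ⟨c, ?_⟩
  rw [toSL_apply] at h1
  have h3 := congrArg (fun B => B.submatrix (eJ k).symm (eJ k).symm) h1
  have h4 : A.1 = (c • (1 : Matrix (Fin (2 + 2 + k)) (Fin (2 + 2 + k)) F)).submatrix (eJ k).symm (eJ k).symm := by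
    simpa using h3
  rw [h4]
  ext i j
  simp [Matrix.one_apply]

end SL

theorem two_ne_of_odd {F : Type*} [Field F] [Fintype F] (ho : Odd (Fintype.card F)) : (2 : F) ≠ 0 := by
  intro h
  have h1 : ringChar F = 2 := by
    by_contra h2
    exact Ring.two_ne_zero h2 h
  have h2 := FiniteField.even_card_of_char_two h1
  rw [Nat.odd_iff] at ho
  omega

/-- **`PSL_n(q)`, `n ≥ 4`, `q` odd** -/
theorem row_psl (hIP : IPTwo) (F : Type) [Field F] [Fintype F] (n : ℕ) (hn : 4 ≤ n) (ho : Odd (Fintype.card F)) :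
    Row 2 (ProjectiveSpecialLinearGroup (Fin n) F) := by
  obtain ⟨k, rfl⟩ : ∃ k, n = 2 + 2 + k := ⟨n - 4, by omega⟩
  obtain ⟨a, b, hq⟩ := exists_quat F
  refine row_of_cond hIP (two_ne_of_odd ho) hq (((QuotientGroup.mk' (center
    (SpecialLinearGroup (Fin (2 + 2 + k)) F))).comp (toSL F k)).comp (Un ∅ (Jx k)).subtype) fun A hA => ?_
  have h1 : toSL F k A.1 ∈ center (SpecialLinearGroup (Fin (2 + 2 + k)) F) := (QuotientGroup.eq_one_iff _).1 hA
  refine scalar_of_toSL ?_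
  rw [Matrix.SpecialLinearGroup.mem_center_iff] at h1
  obtain ⟨c, -, hc⟩ := h1
  exact ⟨c, by rw [← hc]; ext i j; simp [Matrix.scalar_apply, Matrix.diagonal_apply, Matrix.one_apply]⟩

/-- **`PSU_n(q)`, `n ≥ 4`, `q` odd** -/
theorem row_psu (hIP : IPTwo) (F : Type) [Field F] [Fintype F] (n q : ℕ) (hF : Fintype.card F = q ^ 2) (hn : 4 ≤ n)
    (ho : Odd q) : Row 2 (PSU n F q) := by
  obtain ⟨k, rfl⟩ : ∃ k, n = 2 + 2 + k := ⟨n - 4, by omega⟩
  have hoF : Odd (Fintype.card F) := by rw [hF]; exact ho.pow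
  obtain ⟨a, b, hq⟩ := exists_quat_su hF hoF
  let g : Un ({cj hF} : Set (F →+* F)) (Jx k) →* SU (2 + 2 + k) F q :=
    ((toSL F k).comp (Un {cj hF} (Jx k)).subtype).codRestrict _ fun A => by
      rw [su_cond hF]
      exact (cond_reindex (eJ k).symm).2 A.2
  refine row_of_cond hIP (two_ne_of_odd hoF) hq ((QuotientGroup.mk' (center (SU (2 + 2 + k) F q))).comp g)
    fun A hA => ?_
  have h1 : g A ∈ center (SU (2 + 2 + k) F q) := (QuotientGroup.eq_one_iff _).1 hA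
  exact scalar_of_toSL (su_cen hF (by omega) _ h1)

end Cfsg.Agent.H144.HT
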