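import Cfsg.Agent.H681.IP.Row

/-!
# Two commuting quaternion (or dihedral) groups exchanged by an element: the vacuous rows of S4933

`row_quat` : `Row 2 S` as soon as `S` contains `i`, `j`, `w` with `i⁴ = j⁴ = w⁴ = 1`, `i^j = i⁻¹`, `i j ≠ j i`,
`⟨i, j⟩` commuting with its conjugate by `w` and with `w²`.
-/

set_option autoImplicit false

namespace Cfsg.Agent.H144.HT

open Subgroup Cfsg.Agent.H316.HT Cfsg.Agent.H681.IP

theorem zpow_two_pow {S : Type*} [Group S] {x : S} {n : ℕ} (h : x ^ (2 ^ n) = 1) : IsPGroup 2 (zpowers x) := by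
  rintro ⟨_, k, rfl⟩
  refine ⟨n, Subtype.ext ?_⟩
  change (x ^ k) ^ 2 ^ n = 1
  rw [← zpow_natCast, ← zpow_mul, mul_comm, zpow_mul, zpow_natCast, h, one_zpow]

/-- an element conjugating `K` into `K` both ways normalises it -/
theorem zpowers_le_normalizer {S : Type*} [Group S] {K : Subgroup S} {w : S} (h1 : ∀ x ∈ K, w * x * w⁻¹ ∈ K)
    (h2 : ∀ x ∈ K, w⁻¹ * x * w ∈ K) : zpowers w ≤ normalizer (K : Set S) := by
  rw [zpowers_le, mem_normalizer_iff]
  intro h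
  refine ⟨h1 h, fun h3 => ?_⟩
  have h4 := h2 _ h3
  have h5 : w⁻¹ * (w * h * w⁻¹) * w = h := by group
  rwa [h5] at h4

theorem exists_two {S : Type*} [Group S] {i j w : S} {n : ℕ} (hi : i ^ 2 ^ n = 1) (hj : j ^ 2 ^ n = 1)
    (hij : j * i * j⁻¹ = i⁻¹) (hw : w ^ 2 ^ n = 1) (hwi : Commute (w ^ 2) i) (hwj : Commute (w ^ 2) j)
    (c1 : Commute i (w * i * w⁻¹)) (c2 : Commute i (w * j * w⁻¹)) (c3 : Commute j (w * i * w⁻¹))
    (c4 : Commute j (w * j * w⁻¹)) : ∃ X : Subgroup S, IsPGroup 2 X ∧ i ∈ X ∧ j ∈ X ∧ w ∈ X := by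
  have hji : j⁻¹ * i * j = i⁻¹ := by
    have h1 : j⁻¹ * (j * i * j⁻¹)⁻¹ * j = i⁻¹ := by group
    rw [hij, inv_inv] at h1
    exact h1
  have hQ : IsPGroup 2 (zpowers j ⊔ zpowers i : Subgroup S) := by
    refine (zpow_two_pow hj).to_sup_of_normal_right' (zpow_two_pow hi) (zpowers_le_normalizer ?_ ?_)
    · rintro _ ⟨k, rfl⟩
      refine ⟨-k, ?_⟩
      change i ^ (-k) = j * i ^ k * j⁻¹
      rw [← conj_zpow, hij, zpow_neg, inv_zpow]
    · rintro _ ⟨k, rfl⟩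
      refine ⟨-k, ?_⟩
      change i ^ (-k) = j⁻¹ * i ^ k * j
      have h2 := conj_zpow (i := k) (a := j⁻¹) (b := i)
      rw [inv_inv] at h2
      rw [← h2, hji, zpow_neg, inv_zpow]
  set Q : Subgroup S := zpowers j ⊔ zpowers i with hQd
  have hiQ : i ∈ Q := (le_sup_right : zpowers i ≤ Q) (mem_zpowers i)
  have hjQ : j ∈ Q := (le_sup_left : zpowers j ≤ Q) (mem_zpowers j)
  have hQle : ∀ {K : Subgroup S}, i ∈ K → j ∈ K → Q ≤ K := fun h1 h2 =>
    sup_le (by rwa [zpowers_le]) (by rwa [zpowers_le])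
  let f : S →* S := (MulAut.conj w).toMonoidHom
  have hf : ∀ x, f x = w * x * w⁻¹ := fun x => rfl
  let Q' : Subgroup S := Q.map f
  have hQ' : IsPGroup 2 Q' := hQ.map f
  -- `Q` commutes with `Q'`
  have hcen : Q ≤ centralizer (Q' : Set S) := by
    have h1 : ∀ x : S, Commute x (w * i * w⁻¹) → Commute x (w * j * w⁻¹) → x ∈ centralizer (Q' : Set S) := by
      intro x hx hx'
      rw [mem_centralizer_iff]
      rintro _ ⟨y, hy, rfl⟩
      have h2 : Q ≤ (centralizer {x}).comap f := by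
        refine hQle ?_ ?_
        · rw [mem_comap, mem_centralizer_singleton_iff]
          exact hx.eq.symm
        · rw [mem_comap, mem_centralizer_singleton_iff]
          exact hx'.eq.symm
      have h3 := h2 hy
      rw [mem_comap, mem_centralizer_singleton_iff] at h3
      exact h3
    exact hQle (h1 i c1 c2) (h1 j c3 c4)
  have hE : IsPGroup 2 (Q ⊔ Q' : Subgroup S) :=
    hQ.to_sup_of_normal_right' hQ' (hcen.trans (centralizer_le_normalizer _))
  have hw2 : ∀ x ∈ Q, Commute (w ^ 2) x := by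
    intro x hx
    have h2 : Q ≤ centralizer {w ^ 2} := hQle (by rw [mem_centralizer_singleton_iff]; exact hwi.eq.symm)
      (by rw [mem_centralizer_singleton_iff]; exact hwj.eq.symm)
    have h3 := h2 hx
    rw [mem_centralizer_singleton_iff] at h3
    exact (show x * w ^ 2 = w ^ 2 * x from h3).symm
  have h1 : ∀ x ∈ Q ⊔ Q', w * x * w⁻¹ ∈ Q ⊔ Q' := by
    intro x hx
    have h2 : Q ⊔ Q' ≤ (Q ⊔ Q').comap f := by
      refine sup_le (fun y hy => ?_) ?_
      · exact (le_sup_right : Q' ≤ Q ⊔ Q') ⟨y, hy, rfl⟩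
      · rintro _ ⟨y, hy, rfl⟩
        rw [mem_comap]
        have h3 : f (f y) = y := by
          rw [hf, hf]
          have h4 := (hw2 y hy).eq
          have h5 : w * (w * y * w⁻¹) * w⁻¹ = (w ^ 2 * y) * (w ^ 2)⁻¹ := by
            simp only [pow_two, mul_assoc, mul_inv_rev]
          rw [h5, h4, mul_inv_cancel_right]
        rw [h3]
        exact (le_sup_left : Q ≤ Q ⊔ Q') hy
    exact h2 hx
  have h2 : ∀ x ∈ Q ⊔ Q', w⁻¹ * x * w ∈ Q ⊔ Q' := by
    -- `w⁻¹ x w = w (w⁻² x w²) w⁻¹`, and `w²` centralises `Q`, `Q'`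
    have h3 : Q ⊔ Q' ≤ centralizer {w ^ 2} := by
      refine sup_le (fun y hy => ?_) ?_
      · rw [mem_centralizer_singleton_iff]
        exact (hw2 y hy).eq.symm
      · rintro _ ⟨y, hy, rfl⟩
        rw [mem_centralizer_singleton_iff, hf]
        have h4 := (hw2 y hy).eq
        have h5 : w * y * w⁻¹ * w ^ 2 = w * (y * w ^ 2) * w⁻¹ := by simp only [pow_two, mul_assoc, mul_inv_cancel, inv_mul_cancel_left, mul_one]
        have h6 : w ^ 2 * (w * y * w⁻¹) = w * (w ^ 2 * y) * w⁻¹ := by simp only [pow_two, mul_assoc]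
        rw [h5, h6, h4]
    intro x hx
    have h4 := h3 hx
    rw [mem_centralizer_singleton_iff] at h4
    have h5 : w⁻¹ * x * w = w * ((w ^ 2)⁻¹ * (x * w ^ 2)) * w⁻¹ := by
      simp only [pow_two, mul_assoc, mul_inv_rev, mul_inv_cancel, mul_inv_cancel_left, mul_one]
    rw [h5, h4, inv_mul_cancel_left]
    exact h1 x hx
  refine ⟨zpowers w ⊔ (Q ⊔ Q'), (zpow_two_pow hw).to_sup_of_normal_right' hE (zpowers_le_normalizer h1 h2), ?_, ?_, ?_⟩
  · exact (le_sup_right : Q ⊔ Q' ≤ _) ((le_sup_left : Q ≤ Q ⊔ Q') hiQ)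
  · exact (le_sup_right : Q ⊔ Q' ≤ _) ((le_sup_left : Q ≤ Q ⊔ Q') hjQ)
  · exact (le_sup_left : zpowers w ≤ _) (mem_zpowers w)

/-- **Two commuting nonabelian groups `⟨i, j⟩`, `⟨i, j⟩ʷ`.** -/
theorem row_quat (hIP : IPTwo) {S : Type*} [Group S] {i j w : S} {n : ℕ} (hi : i ^ 2 ^ n = 1) (hj : j ^ 2 ^ n = 1)
    (hij : j * i * j⁻¹ = i⁻¹) (hw : w ^ 2 ^ n = 1) (hwi : Commute (w ^ 2) i) (hwj : Commute (w ^ 2) j)
    (c1 : Commute i (w * i * w⁻¹)) (c2 : Commute i (w * j * w⁻¹)) (c3 : Commute j (w * i * w⁻¹))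
    (c4 : Commute j (w * j * w⁻¹)) (hne : i ^ 2 ≠ 1) : Row 2 S := by
  obtain ⟨X, hX, h1, h2, h3⟩ := exists_two hi hj hij hw hwi hwj c1 c2 c3 c4
  refine row_two_swap hIP X hX h1 h2 h3 (fun h => hne ?_) c1 c2 c3 c4
  have h4 : j * i * j⁻¹ = i := by rw [← h, mul_inv_cancel_right]
  rw [hij] at h4
  rw [pow_two]
  nth_rewrite 1 [← h4]
  exact inv_mul_cancel i

theorem row_equiv {p : ℕ} {S T : Type*} [Group S] [Group T] (e : S ≃* T) (h : Row p T) : Row p S := by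
  intro A _ _ N _ ⟨e'⟩ hc M hM P a ha hcd
  exact h A N ⟨e'.trans e⟩ hc M hM P a ha hcd

end Cfsg.Agent.H144.HT
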